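/-
In the presented Fi₂₃, the subgroup generated by a, …, i is a non-split double cover of the presented Fi₂₂ (helper16).
-/
import Cfsg.Agent.Lib.ToddCox.Fi23Cov.Base

set_option autoImplicit false
set_option maxRecDepth 100000
set_option linter.style.longLine false

namespace Cfsg.Agent.Lib.ToddCox.Fi23Cov

open Cfsg.Spor Cfsg.Agent.Lib.ToddCox.Fi23O
open Cfsg.Agent.Lib.ToddCox.Fi23_31671 (rels RL sg LT Iv Sl Gl letters rep_exists tab index_eq set_eq)

/-- The names of the generators of Fi₂₂ among those of Fi₂₃. -/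
def τ : Fi22.Gen → Fi23.Gen
  | .a => .a | .b => .b | .c => .c | .d => .d | .e => .e | .f => .f | .g => .g | .h => .h | .i => .i

/-- The central involution. -/
def zF : FreeGroup Fi23.Gen := (Fi23.b * Fi23.c * Fi23.d * Fi23.e * Fi23.f * Fi23.g * Fi23.h) ^ 9

abbrev G : Type := PresentedGroup rels
abbrev HH : Subgroup G := subG rels Sl

/-- The relators of Fi₂₂. -/
def RL22 : List (FreeGroup Fi22.Gen) := coxList Fi22.edges ++ Fi22.extra

theorem map_RL22 : ∀ r ∈ RL22, FreeGroup.map τ r ∈ RL ∨ FreeGroup.map τ r = zF := by decide +kernel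

theorem of_mem_Sl : ∀ x : Fi22.Gen, FreeGroup.of (τ x) ∈ Sl := by
  intro x; cases x <;> decide +kernel

theorem mem_HH_of {x : Fi22.Gen} : PresentedGroup.mk rels (FreeGroup.of (τ x)) ∈ HH :=
  subG_mem (of_mem_Sl x)

/-- The letters of the subgroup. -/
def ℓ (x : Fi22.Gen) : HH := ⟨PresentedGroup.mk rels (FreeGroup.of (τ x)), mem_HH_of⟩

/-- The map from the free group to the subgroup. -/
noncomputable def ψ : FreeGroup Fi22.Gen →* HH := FreeGroup.lift ℓ

theorem ψ_val (r : FreeGroup Fi22.Gen) : ((ψ r : HH) : G) = PresentedGroup.mk rels (FreeGroup.map τ r) := by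
  have : HH.subtype.comp ψ = (PresentedGroup.mk rels).comp (FreeGroup.map τ) := by
    ext x
    simp [ψ, ℓ]
  exact DFunLike.congr_fun this r

theorem zF_mem : PresentedGroup.mk rels zF ∈ HH := by
  have h : ∀ x : Fi22.Gen, PresentedGroup.mk rels (FreeGroup.of (τ x)) ∈ HH := fun x => mem_HH_of
  have hb := h .b; have hc := h .c; have hd := h .d; have he := h .e; have hf := h .f; have hg := h .g; have hh := h .h
  unfold zF
  rw [map_pow, map_mul, map_mul, map_mul, map_mul, map_mul, map_mul]
  exact HH.pow_mem (HH.mul_mem (HH.mul_mem (HH.mul_mem (HH.mul_mem (HH.mul_mem (HH.mul_mem hb hc) hd) he) hf) hg) hh) _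

def zH : HH := ⟨PresentedGroup.mk rels zF, zF_mem⟩

theorem ψ_z : ψ ((Fi22.b * Fi22.c * Fi22.d * Fi22.e * Fi22.f * Fi22.g * Fi22.h) ^ 9) = zH := by
  apply Subtype.ext
  rw [ψ_val]
  rfl

theorem zH_ne : zH ≠ 1 := by
  intro h
  have h1 : PresentedGroup.mk rels zF = 1 := congrArg Subtype.val h
  exact mk_ne_one (by decide +kernel) (k := 1) (by norm_num) (by decide +kernel) h1

theorem zH_sq : zH * zH = 1 := by
  apply Subtype.ext
  show PresentedGroup.mk rels zF * PresentedGroup.mk rels zF = 1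
  rw [← map_mul]
  exact mk_one (by decide +kernel) (by decide +kernel)

theorem z_comm_chk : ∀ x : Fi22.Gen, (∀ a ∈ relW sg (zF * FreeGroup.of (τ x) * zF⁻¹ * (FreeGroup.of (τ x))⁻¹), a < 10) ∧
    ∀ b ∈ baseL, tabW tab (relW sg (zF * FreeGroup.of (τ x) * zF⁻¹ * (FreeGroup.of (τ x))⁻¹)) b = b := by
  intro x
  cases x <;> decide +kernel

theorem ℓ_comm (x : Fi22.Gen) : ℓ x * zH = zH * ℓ x := by
  apply Subtype.ext
  show PresentedGroup.mk rels (FreeGroup.of (τ x)) * PresentedGroup.mk rels zF = PresentedGroup.mk rels zF * PresentedGroup.mk rels (FreeGroup.of (τ x))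
  obtain ⟨h1, h2⟩ := z_comm_chk x
  have := mk_one h1 h2
  simp only [map_mul, map_inv] at this
  have h3 : PresentedGroup.mk rels zF * PresentedGroup.mk rels (FreeGroup.of (τ x)) = PresentedGroup.mk rels (FreeGroup.of (τ x)) * PresentedGroup.mk rels zF := by
    rw [mul_inv_eq_one, mul_inv_eq_iff_eq_mul] at this
    exact this
  exact h3.symm

/-- Every element of the subgroup is a value of `ψ`. -/
theorem ψ_surj : Function.Surjective ψ := by
  rintro ⟨g, s, hs, rfl⟩
  have hs' : s ∈ (FreeGroup.map τ).range := by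
    have : Subgroup.closure {r | r ∈ Sl} ≤ (FreeGroup.map τ).range := by
      rw [Subgroup.closure_le]
      intro r hr
      have hr' : r ∈ Sl := hr
      simp only [Sl, List.mem_cons, List.not_mem_nil, or_false] at hr'
      rcases hr' with rfl | rfl | rfl | rfl | rfl | rfl | rfl | rfl | rfl
      · exact ⟨FreeGroup.of .a, by simp [τ] <;> rfl⟩
      · exact ⟨FreeGroup.of .b, by simp [τ] <;> rfl⟩
      · exact ⟨FreeGroup.of .c, by simp [τ] <;> rfl⟩
      · exact ⟨FreeGroup.of .d, by simp [τ] <;> rfl⟩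
      · exact ⟨FreeGroup.of .e, by simp [τ] <;> rfl⟩
      · exact ⟨FreeGroup.of .f, by simp [τ] <;> rfl⟩
      · exact ⟨FreeGroup.of .g, by simp [τ] <;> rfl⟩
      · exact ⟨FreeGroup.of .h, by simp [τ] <;> rfl⟩
      · exact ⟨FreeGroup.of .i, by simp [τ] <;> rfl⟩
    exact this hs
  obtain ⟨w, rfl⟩ := hs'
  exact ⟨w, Subtype.ext (ψ_val w)⟩

theorem z_central (g : HH) : Commute g zH := by
  obtain ⟨w, rfl⟩ := ψ_surj g
  induction w using FreeGroup.induction_on with
  | C1 => simp only [map_one]; exact Commute.one_left _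
  | of x =>
    show ψ (FreeGroup.of x) * zH = zH * ψ (FreeGroup.of x)
    simp only [ψ, FreeGroup.lift_apply_of]
    exact ℓ_comm x
  | inv_of x ih =>
    rw [map_inv]
    exact ih.inv_left
  | mul x y hx hy =>
    rw [map_mul]
    exact hx.mul_left hy

abbrev Z : Subgroup HH := Subgroup.zpowers zH

instance Z_normal : Z.Normal := by
  refine ⟨fun n hn g => ?_⟩
  obtain ⟨k, rfl⟩ := Subgroup.mem_zpowers_iff.mp hn
  have h : Commute g (zH ^ k) := (z_central g).zpow_right k
  rw [h.eq, mul_assoc, mul_inv_cancel, mul_one]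
  exact hn

theorem card_G : Nat.card G = 4089470473293004800 := Fi23O.main.2

theorem card_HH : Nat.card HH = 129123503308800 := by
  have h := Subgroup.card_mul_index HH
  rw [index_eq, card_G] at h
  omega

theorem card_Z : Nat.card Z = 2 := by
  rw [Nat.card_zpowers]
  have : Fact (Nat.Prime 2) := ⟨Nat.prime_two⟩
  apply orderOf_eq_prime
  · rw [pow_two]; exact zH_sq
  · exact zH_ne

theorem card_Q : Nat.card (HH ⧸ Z) = 64561751654400 := by
  have h := Subgroup.card_eq_card_quotient_mul_card_subgroup Z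
  rw [card_HH, card_Z] at h
  omega

theorem ψ_rel {r : FreeGroup Fi22.Gen} (h : FreeGroup.map τ r ∈ RL) : ψ r = 1 := by
  apply Subtype.ext
  rw [ψ_val]
  exact PresentedGroup.one_of_mem ((mem_rels_iff Fi23.edges Fi23.extra _).mpr h)

theorem lift_eq : (FreeGroup.lift (fun x => ((ℓ x : HH) : HH ⧸ Z))) = (QuotientGroup.mk' Z).comp ψ := by
  ext x
  simp [ψ]

/-- The map from the presented Fi₂₂ to the quotient. -/
noncomputable def φ : Fi22 →* HH ⧸ Z :=
  PresentedGroup.toGroup (f := fun x => ((ℓ x : HH) : HH ⧸ Z)) (by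
    intro r hr
    have hr' : r ∈ RL22 := (mem_rels_iff Fi22.edges Fi22.extra r).mp hr
    rw [lift_eq]
    show ((ψ r : HH) : HH ⧸ Z) = 1
    rw [QuotientGroup.eq_one_iff]
    rcases map_RL22 r hr' with h | h
    · rw [ψ_rel h]
      exact Subgroup.one_mem _
    · have : ψ r = zH := by
        apply Subtype.ext
        rw [ψ_val, h]
        rfl
      rw [this]
      exact Subgroup.mem_zpowers _)

theorem φ_mk (w : FreeGroup Fi22.Gen) : φ (PresentedGroup.mk _ w) = ((ψ w : HH) : HH ⧸ Z) := by
  show (FreeGroup.lift (fun x => ((ℓ x : HH) : HH ⧸ Z))) w = _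
  rw [lift_eq]
  rfl

theorem φ_surj : Function.Surjective φ := by
  intro q
  obtain ⟨g, rfl⟩ := QuotientGroup.mk_surjective q
  obtain ⟨w, rfl⟩ := ψ_surj g
  exact ⟨_, φ_mk w⟩

theorem card_22 : Nat.card Fi22 = 64561751654400 := Fi22O.main.2
theorem simple_22 : IsSimpleGroup Fi22 := Fi22O.main.1

theorem φ_bij : Function.Bijective φ := by
  have : Finite (HH ⧸ Z) := Nat.finite_of_card_ne_zero (by rw [card_Q]; norm_num)
  have : Finite Fi22 := Nat.finite_of_card_ne_zero (by rw [card_22]; norm_num)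
  exact (Nat.bijective_iff_surjective_and_card φ).mpr ⟨φ_surj, by rw [card_Q, card_22]⟩

theorem noncomm_22 : ∃ x y : Fi22, x * y ≠ y * x := by
  by_contra hcon
  push Not at hcon
  have : Finite Fi22 := Nat.finite_of_card_ne_zero (by rw [card_22]; norm_num)
  let I : CommGroup Fi22 := { (inferInstance : Group Fi22) with mul_comm := hcon }
  have hp : (Nat.card Fi22).Prime := by
    have hs : @IsSimpleGroup Fi22 I.toGroup := simple_22
    exact IsSimpleGroup.prime_card
  rw [card_22] at hp
  exact absurd hp (by norm_num)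

/-- In a commutative group two involutions with product of order dividing 3 are equal. -/
theorem eq_of_cube {A : Type*} [CommGroup A] {a b : A} (ha : a * a = 1) (hb : b * b = 1) (h : (a * b) ^ 3 = 1) : a = b := by
  have h1 : (a * b) ^ 3 = a * b := by
    rw [mul_pow]
    have e1 : a ^ 3 = a := by rw [pow_succ, pow_two, ha, one_mul]
    have e2 : b ^ 3 = b := by rw [pow_succ, pow_two, hb, one_mul]
    rw [e1, e2]
  rw [h1] at h
  have h2 : b = b⁻¹ := eq_inv_of_mul_eq_one_left hb
  rw [h2]
  exact eq_inv_of_mul_eq_one_left h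

theorem sq_mem : ∀ x : Fi22.Gen, FreeGroup.map τ (FreeGroup.of x * FreeGroup.of x) ∈ RL := by
  intro x; cases x <;> decide +kernel

theorem edge_mem : ∀ e ∈ Fi22.edges, FreeGroup.map τ ((FreeGroup.of e.1 * FreeGroup.of e.2.2) ^ 3) ∈ RL := by
  decide +kernel

theorem perfect : commutator HH = ⊤ := by
  rw [eq_top_iff]
  intro g _
  let π : HH →* Abelianization HH := Abelianization.of
  let α : Fi22.Gen → Abelianization HH := fun x => π (ψ (FreeGroup.of x))
  have hsq : ∀ x, α x * α x = 1 := by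
    intro x
    show π (ψ (FreeGroup.of x)) * π (ψ (FreeGroup.of x)) = 1
    rw [← map_mul, ← map_mul, ψ_rel (sq_mem x), map_one]
  have hed : ∀ x y, (x, 3, y) ∈ Fi22.edges → α x = α y := by
    intro x y hxy
    apply eq_of_cube (hsq x) (hsq y)
    show (π (ψ (FreeGroup.of x)) * π (ψ (FreeGroup.of y))) ^ 3 = 1
    rw [← map_mul, ← map_mul, ← map_pow, ← map_pow, ψ_rel (edge_mem _ hxy), map_one]
  have e1 := hed .a .b (by decide)
  have e2 := hed .b .c (by decide)
  have e3 := hed .c .d (by decide)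
  have e4 := hed .d .e (by decide)
  have e5 := hed .d .h (by decide)
  have e6 := hed .e .f (by decide)
  have e7 := hed .f .g (by decide)
  have e8 := hed .h .i (by decide)
  have hx : FreeGroup.map τ ((Fi22.a * Fi22.b * Fi22.c * Fi22.d * Fi22.e * Fi22.f * Fi22.h) ^ 9) ∈ RL := by decide +kernel
  have hr := congrArg π (ψ_rel hx)
  simp only [map_pow, map_mul, map_one] at hr
  have hαa : π (ψ (FreeGroup.of .a)) = 1 := by
    have t : ∀ a : Abelianization HH, a * a = 1 → (a * a * a * a * a * a * a) ^ 9 = 1 → a = 1 := by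
      intro a ha h
      have h7 : a * a * a * a * a * a * a = a := by
        simp only [ha, one_mul, mul_one]
      rw [h7] at h
      have h9 : a ^ 9 = a := by
        have : a ^ 9 = (a * a) * (a * a) * (a * a) * (a * a) * a := by
          simp only [pow_succ, pow_zero, one_mul, mul_assoc]
        rw [this, ha]
        simp
      rw [h9] at h
      exact h
    apply t _ (hsq .a)
    have : ∀ x, α x = α .a := by
      intro x
      cases x
      · rfl
      · exact e1.symm
      · rw [← e2, ← e1]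
      · rw [← e3, ← e2, ← e1]
      · rw [← e4, ← e3, ← e2, ← e1]
      · rw [← e6, ← e4, ← e3, ← e2, ← e1]
      · rw [← e7, ← e6, ← e4, ← e3, ← e2, ← e1]
      · rw [← e5, ← e3, ← e2, ← e1]
      · rw [← e8, ← e5, ← e3, ← e2, ← e1]
    have h2 := hr
    simp only [Fi22.a, Fi22.b, Fi22.c, Fi22.d, Fi22.e, Fi22.f, Fi22.h] at h2
    have e_b := this .b
    have e_c := this .c
    have e_d := this .d
    have e_e := this .e
    have e_f := this .f
    have e_h := this .h
    simp only [α] at e_b e_c e_d e_e e_f e_h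
    rw [e_b, e_c, e_d, e_e, e_f, e_h] at h2
    exact h2
  have hall : ∀ x, α x = 1 := by
    intro x
    have e0 : α .a = 1 := hαa
    cases x
    · exact e0
    · rw [← e1, e0]
    · rw [← e2, ← e1, e0]
    · rw [← e3, ← e2, ← e1, e0]
    · rw [← e4, ← e3, ← e2, ← e1, e0]
    · rw [← e6, ← e4, ← e3, ← e2, ← e1, e0]
    · rw [← e7, ← e6, ← e4, ← e3, ← e2, ← e1, e0]
    · rw [← e5, ← e3, ← e2, ← e1, e0]
    · rw [← e8, ← e5, ← e3, ← e2, ← e1, e0]
  have htriv : π.comp ψ = 1 := by
    ext x
    exact hall x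
  obtain ⟨w, rfl⟩ := ψ_surj g
  have h3 : π (ψ w) = 1 := DFunLike.congr_fun htriv w
  exact (QuotientGroup.eq_one_iff _).mp h3

theorem main : Cfsg.IsNonsplitDoubleCover HH Fi22 :=
  isNonsplitDoubleCover_of simple_22 noncomm_22 zH_ne zH_sq (fun g => z_central g) perfect rfl
    (MulEquiv.ofBijective φ φ_bij).symm

end Cfsg.Agent.Lib.ToddCox.Fi23Cov
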